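import Mathlib.LinearAlgebra.FiniteDimensional.Lemmas
import Mathlib.GroupTheory.Sylow
import Mathlib.GroupTheory.Index
import Cfsg.Prelude.Def_Transfer

/-!
Elementary abelian `2`-groups of linear maps in odd characteristic, and normal subgroups of Sylow
subgroups from normalisers of odd index.
-/

set_option autoImplicit false
set_option linter.style.haveILetI false

namespace CfsgLib.FFModules.NormalRank

section Linear

variable {F V E : Type*} [Field F] [AddCommGroup V] [Module F V] [FiniteDimensional F V]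
variable [Group E] [Finite E] (ρ : E →* Module.End F V)

/-- The elements acting trivially on `U`. -/
def kerOn (U : Submodule F V) : Subgroup E where
  carrier := {e | ∀ u ∈ U, ρ e u = u}
  one_mem' := fun u _ => by simp
  mul_mem' := fun {a b} ha hb u hu => by rw [map_mul, Module.End.mul_apply, hb u hu, ha u hu]
  inv_mem' := fun {a} ha u hu => by
    conv_lhs => rw [← ha u hu]
    rw [← Module.End.mul_apply, ← map_mul, inv_mul_cancel, map_one, Module.End.one_apply]

variable (h2 : (2 : F) ≠ 0) (hcomm : ∀ a b : E, a * b = b * a) (hsq : ∀ a : E, a * a = 1)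
include h2 hcomm hsq

/-- Commuting involutions on a space with a superadditive measure of the pieces that is positive on
the common eigenspaces. -/
theorem index_kerOn_le_measure (f : Submodule F V → ℕ) (P : Submodule F V → Prop)
    (hsplit : ∀ U, P U → (∀ a : E, ∀ u ∈ U, ρ a u ∈ U) → ∀ a : E,
      P (U ⊓ LinearMap.ker (ρ a - 1)) ∧ P (U ⊓ LinearMap.ker (ρ a + 1)))
    (hleaf : ∀ U, P U → U ≠ ⊥ → (∀ a : E, (∀ u ∈ U, ρ a u = u) ∨ (∀ u ∈ U, ρ a u = -u)) → 1 ≤ f U)
    (hadd : ∀ A B U : Submodule F V, A ≤ U → B ≤ U → A ⊓ B = ⊥ → f A + f B ≤ f U) :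
    ∀ U : Submodule F V, P U → (∀ a : E, ∀ u ∈ U, ρ a u ∈ U) →
      (kerOn ρ U).index ≤ 2 ^ f U := by
  intro U
  induction hn : Module.finrank F U using Nat.strong_induction_on generalizing U with
  | _ d ih =>
    intro hP hinv
    subst hn
    have hmemp : ∀ (a : E) (u : V), u ∈ LinearMap.ker (ρ a - 1) ↔ ρ a u = u := fun a u => by
      rw [LinearMap.mem_ker, LinearMap.sub_apply, sub_eq_zero, Module.End.one_apply]
    have hmemm : ∀ (a : E) (u : V), u ∈ LinearMap.ker (ρ a + 1) ↔ ρ a u = -u := fun a u => by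
      rw [LinearMap.mem_ker, LinearMap.add_apply, Module.End.one_apply, add_eq_zero_iff_eq_neg]
    by_cases hsc : ∀ a : E, (∀ u ∈ U, ρ a u = u) ∨ (∀ u ∈ U, ρ a u = -u)
    · by_cases hall : ∀ a : E, a ∈ kerOn ρ U
      · rw [(Subgroup.eq_top_iff' _).2 hall, Subgroup.index_top]
        exact Nat.one_le_two_pow
      push Not at hall
      obtain ⟨a, ha⟩ := hall
      have hU : U ≠ ⊥ := fun e => ha fun u hu => by
        rw [e, Submodule.mem_bot] at hu; rw [hu, map_zero]
      have hi : (kerOn ρ U).index = 2 := by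
        refine Subgroup.index_eq_two_iff.2 ⟨a, fun b => ?_⟩
        have hma : ∀ u ∈ U, ρ a u = -u := (hsc a).resolve_left ha
        rcases hsc b with hb | hb
        · refine Or.inr ⟨hb, fun hab => ha fun u hu => ?_⟩
          have := hab u hu
          rwa [map_mul, Module.End.mul_apply, hma u hu, map_neg, hb u hu, ← hma u hu] at this
        · refine Or.inl ⟨fun u hu => ?_, fun hb' => ha fun u hu => ?_⟩
          · rw [map_mul, Module.End.mul_apply, hma u hu, map_neg, hb u hu, neg_neg]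
          · rw [hma u hu, ← hb u hu, hb' u hu]
      rw [hi]
      exact Nat.le_self_pow (Nat.one_le_iff_ne_zero.1 (hleaf U hP hU hsc)) 2
    push Not at hsc
    obtain ⟨a, ⟨u₁, hu₁, h₁⟩, ⟨u₂, hu₂, h₂⟩⟩ := hsc
    obtain ⟨hPp, hPm⟩ := hsplit U hP hinv a
    set Up := U ⊓ LinearMap.ker (ρ a - 1)
    set Um := U ⊓ LinearMap.ker (ρ a + 1)
    have hinvp : ∀ b : E, ∀ u ∈ Up, ρ b u ∈ Up := fun b u hu => by
      refine ⟨hinv b u hu.1, (hmemp a _).2 ?_⟩
      rw [← Module.End.mul_apply, ← map_mul, hcomm, map_mul, Module.End.mul_apply, (hmemp a u).1 hu.2]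
    have hinvm : ∀ b : E, ∀ u ∈ Um, ρ b u ∈ Um := fun b u hu => by
      refine ⟨hinv b u hu.1, (hmemm a _).2 ?_⟩
      rw [← Module.End.mul_apply, ← map_mul, hcomm, map_mul, Module.End.mul_apply, (hmemm a u).1 hu.2,
        map_neg]
    have haa : ∀ u, ρ a (ρ a u) = u := fun u => by
      rw [← Module.End.mul_apply, ← map_mul, hsq, map_one, Module.End.one_apply]
    have hsup : Up ⊔ Um = U := by
      refine le_antisymm (sup_le inf_le_left inf_le_left) fun u hu => ?_
      refine Submodule.mem_sup.2 ⟨(2 : F)⁻¹ • (u + ρ a u), ⟨?_, (hmemp a _).2 ?_⟩,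
        (2 : F)⁻¹ • (u - ρ a u), ⟨?_, (hmemm a _).2 ?_⟩, ?_⟩
      · exact U.smul_mem _ (U.add_mem hu (hinv a u hu))
      · rw [map_smul, map_add, haa, add_comm]
      · exact U.smul_mem _ (U.sub_mem hu (hinv a u hu))
      · rw [map_smul, map_sub, haa, ← smul_neg, neg_sub]
      · rw [← smul_add, add_add_sub_cancel, ← two_smul F, smul_smul, inv_mul_cancel₀ h2, one_smul]
    have hinf : Up ⊓ Um = ⊥ := by
      rw [eq_bot_iff]
      intro u hu
      have e1 := (hmemp a u).1 hu.1.2
      rw [(hmemm a u).1 hu.2.2, neg_eq_iff_add_eq_zero, ← two_smul F, smul_eq_zero] at e1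
      exact (Submodule.mem_bot F).2 (e1.resolve_left h2)
    have hp : Up < U := lt_of_le_of_ne inf_le_left fun e => h₁ ((hmemp a _).1 (e.ge hu₁).2)
    have hm : Um < U := lt_of_le_of_ne inf_le_left fun e => h₂ ((hmemm a _).1 (e.ge hu₂).2)
    have i1 := ih _ (Submodule.finrank_lt_finrank_of_lt hp) Up rfl hPp hinvp
    have i2 := ih _ (Submodule.finrank_lt_finrank_of_lt hm) Um rfl hPm hinvm
    have hK : kerOn ρ Up ⊓ kerOn ρ Um ≤ kerOn ρ U := by
      intro b hb u hu
      rw [← hsup] at hu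
      obtain ⟨x, hx, y, hy, rfl⟩ := Submodule.mem_sup.1 hu
      rw [map_add, hb.1 x hx, hb.2 y hy]
    calc (kerOn ρ U).index ≤ (kerOn ρ Up ⊓ kerOn ρ Um).index :=
          Subgroup.index_antitone hK
      _ ≤ (kerOn ρ Up).index * (kerOn ρ Um).index := Subgroup.index_inf_le
      _ ≤ 2 ^ f Up * 2 ^ f Um := Nat.mul_le_mul i1 i2
      _ = 2 ^ (f Up + f Um) := (pow_add _ _ _).symm
      _ ≤ 2 ^ f U :=
          Nat.pow_le_pow_right two_pos (hadd Up Um U inf_le_left inf_le_left hinf)

/-- Commuting involutions on a space all whose relevant pieces have dimension at least `k`. -/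
theorem index_kerOn_le (k : ℕ) (hk : 0 < k) (P : Submodule F V → Prop)
    (hsplit : ∀ U, P U → (∀ a : E, ∀ u ∈ U, ρ a u ∈ U) → ∀ a : E,
      P (U ⊓ LinearMap.ker (ρ a - 1)) ∧ P (U ⊓ LinearMap.ker (ρ a + 1)))
    (hdim : ∀ U, P U → U ≠ ⊥ → k ≤ Module.finrank F U) :
    ∀ U : Submodule F V, P U → (∀ a : E, ∀ u ∈ U, ρ a u ∈ U) →
      (kerOn ρ U).index ≤ 2 ^ (Module.finrank F U / k) :=
  index_kerOn_le_measure ρ h2 hcomm hsq (fun U => Module.finrank F U / k) P hsplit
    (fun U hP hU _ => Nat.div_pos (hdim U hP hU) hk) fun A B U hA hB hAB => by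
      refine Nat.div_add_div_le_add_div.trans (Nat.div_le_div_right ?_)
      have := Submodule.finrank_sup_add_finrank_inf_eq A B
      rw [hAB, finrank_bot, add_zero] at this
      exact this ▸ Submodule.finrank_mono (sup_le hA hB)

end Linear

/-- An elementary abelian subgroup whose normalizer has odd index gives a normal one in every Sylow
`2`-subgroup. -/
theorem exists_normal_of_odd_index {G : Type*} [Group G] [Finite G] (W E₀ : Subgroup G)
    (hW : ¬ 2 ∣ W.index) (hE : Cfsg.IsElementaryAbelian 2 E₀) (hle : E₀ ≤ W)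
    (hn : W ≤ Subgroup.normalizer (E₀ : Set G)) (S : Sylow 2 G) :
    ∃ E : Subgroup ↥(S : Subgroup G), E.Normal ∧ Cfsg.IsElementaryAbelian 2 E ∧
      Nat.card E = Nat.card E₀ := by
  haveI : Fact (Nat.Prime 2) := ⟨Nat.prime_two⟩
  obtain ⟨P⟩ : Nonempty (Sylow 2 W) := inferInstance
  have hE2 : IsPGroup 2 E₀ := fun a => ⟨1, Subtype.ext (by simpa using hE.2 (a : G) a.2)⟩
  haveI hEn : (E₀.subgroupOf W).Normal := Subgroup.normal_subgroupOf_of_le_normalizer hn
  have hEP : E₀.subgroupOf W ≤ (P : Subgroup W) := by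
    have hp2 : IsPGroup 2 (E₀.subgroupOf W) :=
      hE2.of_equiv (Subgroup.subgroupOfEquivOfLe hle).symm
    exact sup_eq_right.1 (P.is_maximal' (hp2.to_sup_of_normal_left P.2) le_sup_right)
  set Q : Subgroup G := (P : Subgroup W).map W.subtype with hQ
  have hQi : ¬ 2 ∣ Q.index := by
    rw [hQ, Subgroup.index_map_subtype]
    exact Nat.Prime.not_dvd_mul Nat.prime_two P.not_dvd_index hW
  set R : Sylow 2 G := (P.2.map W.subtype).toSylow hQi
  obtain ⟨g, hg⟩ := MulAction.exists_smul_eq G R S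
  have hE₀Q : E₀ ≤ Q := fun x hx => ⟨⟨x, hle hx⟩, hEP hx, rfl⟩
  have hQW : Q ≤ W := Subgroup.map_subtype_le _
  have hS : (S : Subgroup G) = Q.map (MulAut.conj g).toMonoidHom := by
    rw [← hg]; rfl
  set E₁ := E₀.map (MulAut.conj g).toMonoidHom with hE₁
  have hE₁S : E₁ ≤ (S : Subgroup G) := hS ▸ Subgroup.map_mono hE₀Q
  have hSn : (S : Subgroup G) ≤ Subgroup.normalizer (E₁ : Set G) := by
    rw [hS, hE₁]
    refine le_trans (Subgroup.map_mono (hQW.trans hn)) ?_
    rintro _ ⟨x, hx, rfl⟩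
    rw [SetLike.mem_coe, Subgroup.mem_normalizer_iff] at hx
    rw [Subgroup.mem_normalizer_iff]
    intro y
    obtain ⟨z, rfl⟩ := (MulAut.conj g).surjective y
    show MulAut.conj g z ∈ E₀.map (MulAut.conj g).toMonoidHom ↔
      MulAut.conj g x * MulAut.conj g z * (MulAut.conj g x)⁻¹ ∈ E₀.map (MulAut.conj g).toMonoidHom
    rw [← map_inv, ← map_mul, ← map_mul]
    exact (Subgroup.mem_map_iff_mem (f := (MulAut.conj g).toMonoidHom) (MulAut.conj g).injective).trans
      ((hx z).trans (Subgroup.mem_map_iff_mem (f := (MulAut.conj g).toMonoidHom)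
        (MulAut.conj g).injective).symm)
  refine ⟨E₁.subgroupOf S, Subgroup.normal_subgroupOf_of_le_normalizer hSn, ⟨⟨⟨fun a b => ?_⟩⟩, fun a ha => ?_⟩, ?_⟩
  · obtain ⟨x, hx, hxa⟩ := a.2
    obtain ⟨y, hy, hyb⟩ := b.2
    refine Subtype.ext (Subtype.ext ?_)
    show ((a : ↥(S : Subgroup G)) : G) * (b : ↥(S : Subgroup G)) = (b : ↥(S : Subgroup G)) * (a : ↥(S : Subgroup G))
    have e : x * y = y * x := congrArg Subtype.val (hE.1.1.1 ⟨x, hx⟩ ⟨y, hy⟩)
    rw [show ((a : ↥(S : Subgroup G)) : G) = MulAut.conj g x from hxa.symm,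
      show ((b : ↥(S : Subgroup G)) : G) = MulAut.conj g y from hyb.symm, ← map_mul, e, map_mul]
  · obtain ⟨x, hx, hxa⟩ := ha
    refine Subtype.ext ?_
    show (a : G) ^ 2 = 1
    rw [show (a : G) = MulAut.conj g x from hxa.symm, ← map_pow, hE.2 x hx, map_one]
  · rw [Nat.card_congr (Subgroup.subgroupOfEquivOfLe hE₁S).toEquiv]
    exact (Nat.card_congr (E₀.equivMapOfInjective _ (MulAut.conj g).injective).toEquiv).symm

end CfsgLib.FFModules.NormalRank
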