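import Cfsg.Agent.Lib.Classes.DerivedWreath
import Cfsg.Agent.Lib.ClassicalLinear.Sylow
import Cfsg.Prelude.Def_Transfer

/-!
The group `(GL_d ≀ S_m) × GL_δ` inside `GL_(d m + δ)`: the sign matrices it normalises and the parity
of its index.
-/

set_option autoImplicit false
set_option linter.style.haveILetI false

namespace CfsgLib.FFModules.NormalRank

open Matrix
open CfsgLib.Classes.DerivedWreath (Wr permCoord_apply)

variable {F : Type*} [Field F] {κ ι D : Type*}
variable [Fintype κ] [DecidableEq κ] [Fintype ι] [DecidableEq ι] [Fintype D] [DecidableEq D]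

/-- The monomial block matrix of an element of the wreath product, beside a block on `D`. -/
def blockMat (x : Wr (GL κ F) ι × GL D F) : Matrix ((κ × ι) ⊕ D) ((κ × ι) ⊕ D) F :=
  fromBlocks
    (Matrix.of fun p q => if x.1.right q.2 = p.2 then (x.1.left p.2 : Matrix κ κ F) p.1 q.1 else 0)
    0 0 (x.2 : Matrix D D F)

omit [Fintype ι] in
theorem blockMat_one : blockMat (1 : Wr (GL κ F) ι × GL D F) = 1 := by
  rw [blockMat, ← fromBlocks_one]
  refine fromBlocks_inj.2 ⟨?_, rfl, rfl, rfl⟩
  ext ⟨a, i⟩ ⟨b, j⟩
  by_cases h : i = j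
  · subst h; simp [Matrix.one_apply]
  · simp [Matrix.one_apply, h, Ne.symm h]

theorem blockMat_mul (x y : Wr (GL κ F) ι × GL D F) : blockMat (x * y) = blockMat x * blockMat y := by
  rw [blockMat, blockMat, blockMat, fromBlocks_multiply]
  refine fromBlocks_inj.2 ⟨?_, by simp, by simp, by simp⟩
  rw [Matrix.zero_mul, add_zero]
  ext ⟨a, i⟩ ⟨b, j⟩
  simp only [Matrix.mul_apply, Matrix.of_apply, Fintype.sum_prod_type]
  have hk : ∀ c : κ, (∑ k : ι, (if x.1.right k = i then (x.1.left i : Matrix κ κ F) a c else 0) *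
      (if y.1.right j = k then (y.1.left k : Matrix κ κ F) c b else 0)) =
      (if x.1.right (y.1.right j) = i then (x.1.left i : Matrix κ κ F) a c *
        (y.1.left (y.1.right j) : Matrix κ κ F) c b else 0) := fun c => by
    rw [Finset.sum_eq_single (y.1.right j) (fun k _ hk => by simp [Ne.symm hk]) (by simp)]
    simp [ite_mul]
  simp only [hk, Prod.fst_mul, SemidirectProduct.mul_left, SemidirectProduct.mul_right,
    Equiv.Perm.mul_apply]
  by_cases h : x.1.right (y.1.right j) = i
  · subst h
    simp [Matrix.mul_apply, permCoord_apply]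
  · simp [h]

/-- `(GL_d ≀ S_m) × GL_δ → GL_(d m + δ)`. -/
def blockHom : Wr (GL κ F) ι × GL D F →* GL ((κ × ι) ⊕ D) F :=
  MonoidHom.toHomUnits
    { toFun := blockMat
      map_one' := blockMat_one
      map_mul' := blockMat_mul }

theorem coe_blockHom (x : Wr (GL κ F) ι × GL D F) :
    (blockHom x : Matrix ((κ × ι) ⊕ D) ((κ × ι) ⊕ D) F) = blockMat x := rfl

theorem blockHom_injective [Nonempty κ] : Function.Injective (blockHom (F := F) (κ := κ) (ι := ι) (D := D)) := by
  rw [← MonoidHom.ker_eq_bot_iff, eq_bot_iff]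
  intro x hx
  rw [Subgroup.mem_bot]
  have h := congrArg Units.val (MonoidHom.mem_ker.1 hx)
  rw [coe_blockHom, Units.val_one, blockMat, ← fromBlocks_one] at h
  obtain ⟨hA, -, -, hD⟩ := fromBlocks_inj.1 h
  have hfix : ∀ j, x.1.right j = j := fun j => by
    by_contra hne
    have e := congrFun (congrFun hA (Classical.arbitrary κ, j)) (Classical.arbitrary κ, j)
    simp [hne] at e
  refine Prod.ext (SemidirectProduct.ext (funext fun j => Units.ext ?_) (Equiv.ext hfix)) (Units.ext hD)
  ext a b
  have e := congrFun (congrFun hA (a, j)) (b, j)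
  simpa [hfix j, Matrix.one_apply] using e

/-- The diagonal sign matrices. -/
def signHom : (ι ⊕ D → ℤˣ) →* GL ((κ × ι) ⊕ D) F :=
  MonoidHom.toHomUnits
    { toFun := fun ε => diagonal (Sum.elim (fun p => ((ε (Sum.inl p.2) : ℤ) : F)) (fun d => ((ε (Sum.inr d) : ℤ) : F)))
      map_one' := by
        rw [← diagonal_one]
        congr 1
        funext p
        rcases p with p | d <;> simp
      map_mul' := fun ε ε' => by
        rw [diagonal_mul_diagonal]
        congr 1
        funext p
        rcases p with p | d <;> simp }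

theorem coe_signHom (ε : ι ⊕ D → ℤˣ) :
    (signHom (F := F) (κ := κ) ε : Matrix ((κ × ι) ⊕ D) ((κ × ι) ⊕ D) F) =
      diagonal (Sum.elim (fun p => ((ε (Sum.inl p.2) : ℤ) : F)) (fun d => ((ε (Sum.inr d) : ℤ) : F))) :=
  rfl

theorem signHom_injective [Nonempty κ] (h2 : (2 : F) ≠ 0) :
    Function.Injective (signHom (F := F) (κ := κ) (ι := ι) (D := D)) := by
  have hc : ∀ u v : ℤˣ, ((u : ℤ) : F) = ((v : ℤ) : F) → u = v := fun u v e => by
    rcases Int.units_eq_one_or u with rfl | rfl <;> rcases Int.units_eq_one_or v with rfl | rfl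
    · rfl
    · exact absurd (by push_cast at e; linear_combination e) h2
    · exact absurd (by push_cast at e; linear_combination -e) h2
    · rfl
  intro ε ε' e
  have h := congrArg Units.val e
  rw [coe_signHom, coe_signHom, Matrix.diagonal_eq_diagonal_iff] at h
  funext p
  rcases p with i | d
  · exact hc _ _ (h (Sum.inl (Classical.arbitrary κ, i)))
  · exact hc _ _ (h (Sum.inr d))

theorem blockHom_mul_signHom [Subsingleton D] (x : Wr (GL κ F) ι × GL D F) (ε : ι ⊕ D → ℤˣ) :
    blockHom x * signHom ε =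
      signHom (fun p => ε (p.map x.1.right.symm id)) * blockHom x := by
  refine Units.ext ?_
  rw [Units.val_mul, Units.val_mul, coe_blockHom, coe_signHom, coe_signHom]
  ext p q
  rw [Matrix.mul_diagonal, Matrix.diagonal_mul, blockMat]
  rcases p with ⟨a, i⟩ | d <;> rcases q with ⟨b, j⟩ | d'
  · simp only [fromBlocks_apply₁₁, Matrix.of_apply, Sum.elim_inl, Sum.map_inl]
    by_cases h : x.1.right j = i
    · subst h; simp [mul_comm]
    · simp [h]
  · simp
  · simp
  · simp [Subsingleton.elim d d', mul_comm]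

/-- The group of sign matrices is elementary abelian, lies in the block group and is normalised by it. -/
theorem sign_range [Subsingleton D] [Nonempty κ] (h2 : (2 : F) ≠ 0) :
    Cfsg.IsElementaryAbelian 2 (signHom (F := F) (κ := κ) (ι := ι) (D := D)).range ∧
      (signHom (F := F) (κ := κ) (ι := ι) (D := D)).range ≤ (blockHom (F := F) (κ := κ) (ι := ι) (D := D)).range ∧
      (blockHom (F := F) (κ := κ) (ι := ι) (D := D)).range ≤
        Subgroup.normalizer ((signHom (F := F) (κ := κ) (ι := ι) (D := D)).range : Set (GL ((κ × ι) ⊕ D) F)) ∧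
      Nat.card (signHom (F := F) (κ := κ) (ι := ι) (D := D)).range = 2 ^ (Fintype.card ι + Fintype.card D) := by
  refine ⟨⟨⟨⟨fun a b => ?_⟩⟩, ?_⟩, ?_, ?_, ?_⟩
  · obtain ⟨ε, ha⟩ := a.2
    obtain ⟨ε', hb⟩ := b.2
    refine Subtype.ext ?_
    show a.1 * b.1 = b.1 * a.1
    rw [← ha, ← hb, ← map_mul, ← map_mul, mul_comm]
  · rintro _ ⟨ε, rfl⟩
    rw [← map_pow, show ε ^ 2 = 1 from funext fun p => by
      rw [Pi.pow_apply, Pi.one_apply, sq, Int.units_mul_self], map_one]
  · classical
    rintro _ ⟨ε, rfl⟩
    let s : ℤˣ → GL κ F := fun u => Units.map (Matrix.scalar κ).toMonoidHom (Units.map (Int.castRingHom F).toMonoidHom u)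
    let t : D → ℤˣ → GL D F := fun _ u => Units.map (Matrix.scalar D).toMonoidHom (Units.map (Int.castRingHom F).toMonoidHom u)
    refine ⟨(⟨fun i => s (ε (Sum.inl i)), 1⟩,
      if h : Nonempty D then t h.some (ε (Sum.inr h.some)) else 1), Units.ext ?_⟩
    rw [coe_blockHom, coe_signHom, blockMat]
    ext p q
    rcases p with ⟨a, i⟩ | d <;> rcases q with ⟨b, j⟩ | d'
    · by_cases h : j = i
      · subst h
        by_cases hab : a = b
        · subst hab
          rcases Int.units_eq_one_or (ε (Sum.inl j)) with e | e <;> simp [s, e]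
        · rcases Int.units_eq_one_or (ε (Sum.inl j)) with e | e <;> simp [s, e, hab]
      · simp [s, h, Ne.symm h]
    · simp
    · simp
    · have hn : Nonempty D := ⟨d⟩
      rw [dif_pos hn]
      obtain rfl := Subsingleton.elim d d'
      obtain e := Subsingleton.elim hn.some d
      rcases Int.units_eq_one_or (ε (Sum.inr d)) with e' | e' <;> simp [t, e, e']
  · rintro _ ⟨x, rfl⟩
    rw [Subgroup.mem_normalizer_iff]
    intro y
    constructor
    · rintro ⟨ε, rfl⟩
      exact ⟨_, (eq_mul_inv_of_mul_eq (blockHom_mul_signHom x ε).symm)⟩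
    · rintro ⟨ε, e⟩
      refine ⟨fun p => ε (p.map x.1.right id), ?_⟩
      have h := blockHom_mul_signHom x (fun p => ε (p.map x.1.right id))
      rw [show (fun p => ε ((p.map x.1.right.symm id).map x.1.right id)) = ε from funext fun p => by
        rcases p with i | d <;> simp, e] at h
      exact mul_left_cancel (h.trans (inv_mul_cancel_right _ _))
  · rw [← Nat.card_congr (MonoidHom.ofInjective (signHom_injective (κ := κ) h2)).toEquiv, Nat.card_fun,
      Nat.card_eq_fintype_card, Nat.card_eq_fintype_card, Fintype.card_sum, Fintype.card_units_int]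

theorem card_blockHom_range [Nonempty κ] [Fintype F] :
    Nat.card (blockHom (F := F) (κ := κ) (ι := ι) (D := D)).range =
      Nat.card (GL κ F) ^ Fintype.card ι * (Fintype.card ι).factorial * Nat.card (GL D F) := by
  rw [← Nat.card_congr (MonoidHom.ofInjective blockHom_injective).toEquiv, Nat.card_prod,
    SemidirectProduct.card, Nat.card_fun, Nat.card_perm, Nat.card_eq_fintype_card (α := ι)]

end CfsgLib.FFModules.NormalRank
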