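import Cfsg.Agent.Lib.ClassicalLinear.Sylow

/-!
The `2`-part of the order of `GL_n(q)` for odd `q`.
-/

set_option autoImplicit false
set_option linter.style.haveILetI false

namespace CfsgLib.FFModules.NormalRank

variable {q : ℕ}

theorem factorization_pow_sub_one_odd (hq : Odd q) (hq1 : 1 < q) {j : ℕ} (hj : Odd j) :
    (q ^ j - 1).factorization 2 = (q - 1).factorization 2 := by
  have hs : Odd (∑ i ∈ Finset.range j, q ^ i) := by
    rw [Finset.odd_sum_iff_odd_card_odd, Finset.filter_true_of_mem (fun i _ => hq.pow),
      Finset.card_range]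
    exact hj
  have hj0 : j ≠ 0 := fun h => by subst h; exact Nat.not_odd_zero hj
  have he : (∑ i ∈ Finset.range j, q ^ i) * (q - 1) = q ^ j - 1 := by
    have := geom_sum_mul_of_one_le hq1.le j
    simpa using this
  rw [← he, Nat.factorization_mul (fun h => by rw [h] at hs; exact Nat.not_odd_zero hs) (by omega),
    Finsupp.add_apply, Nat.factorization_eq_zero_of_not_dvd
      (fun h => by
        obtain ⟨k, hk⟩ := h
        obtain ⟨l, hl⟩ := hs
        omega), zero_add]

theorem factorization_pow_sub_one_even (hq : Odd q) (hq1 : 1 < q) {j : ℕ} (hj : j ≠ 0) :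
    (q ^ (2 * j) - 1).factorization 2 = (q ^ 2 - 1).factorization 2 + j.factorization 2 := by
  haveI : Fact (Nat.Prime 2) := ⟨Nat.prime_two⟩
  have hq2 : ¬ 2 ∣ q := Nat.two_dvd_ne_zero.mpr (Nat.odd_iff.mp hq)
  have h1 := padicValNat.pow_two_sub_pow (y := 1) hq1 (by omega) hq2 (n := 2 * j) (by omega) (even_two_mul _)
  have h2 := padicValNat.pow_two_sub_pow (y := 1) hq1 (by omega) hq2 (n := 2) (by omega) even_two
  rw [one_pow, padicValNat.mul two_ne_zero hj, padicValNat.self one_lt_two] at h1
  rw [one_pow, padicValNat.self one_lt_two] at h2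
  simp only [Nat.factorization_def _ Nat.prime_two]
  omega

theorem factorization_sq_sub_one (h4 : q % 4 = 1) (hq1 : 1 < q) :
    (q ^ 2 - 1).factorization 2 = (q - 1).factorization 2 + 1 := by
  haveI : Fact (Nat.Prime 2) := ⟨Nat.prime_two⟩
  have hq2 : ¬ 2 ∣ q := by omega
  have h2 := padicValNat.pow_two_sub_pow (y := 1) hq1 (by omega) hq2 (n := 2) (by omega) even_two
  rw [one_pow, padicValNat.self one_lt_two] at h2
  have h3 : padicValNat 2 (q + 1) = 1 := by
    rw [show q + 1 = 2 * ((q + 1) / 2) by omega, padicValNat.mul two_ne_zero (by omega),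
      padicValNat.self one_lt_two, padicValNat.eq_zero_of_not_dvd (by omega)]
  simp only [Nat.factorization_def _ Nat.prime_two]
  omega

variable {F : Type*} [Field F] [Fintype F]

theorem factorization_card_GL_succ (hF : Fintype.card F = q) (hq : Odd q) (k : ℕ) :
    (Nat.card (GL (Fin (k + 1)) F)).factorization 2 =
      (Nat.card (GL (Fin k) F)).factorization 2 + (q ^ (k + 1) - 1).factorization 2 := by
  have hq1 : 1 < q := hF ▸ Fintype.one_lt_card
  have hq2 : ¬ 2 ∣ q := Nat.two_dvd_ne_zero.mpr (Nat.odd_iff.mp hq)
  have hpos : ∀ i, q ^ (i + 1) - 1 ≠ 0 := fun i => by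
    have := Nat.one_lt_pow (show i + 1 ≠ 0 by omega) hq1
    omega
  have hv : ∀ m, (Nat.card (GL (Fin m) F)).factorization 2 =
      (∏ i ∈ Finset.range m, (q ^ (i + 1) - 1)).factorization 2 := fun m => by
    rw [CfsgLib.ClassicalLinear.card_GL_eq_pow_mul, hF, Fintype.card_fin,
      Nat.factorization_mul (pow_ne_zero _ (by omega)) (Finset.prod_ne_zero_iff.mpr fun i _ => hpos i),
      Finsupp.add_apply, Nat.factorization_pow, Finsupp.smul_apply,
      Nat.factorization_eq_zero_of_not_dvd hq2, smul_zero, zero_add]
  rw [hv, hv, Finset.prod_range_succ,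
    Nat.factorization_mul (Finset.prod_ne_zero_iff.mpr fun i _ => hpos i) (hpos k), Finsupp.add_apply]

omit [Fintype F] in
theorem factorization_card_GL_zero : (Nat.card (GL (Fin 0) F)).factorization 2 = 0 := by
  rw [Nat.card_unique, Nat.factorization_one, Finsupp.zero_apply]

theorem factorization_card_GL_one (hF : Fintype.card F = q) (hq : Odd q) :
    (Nat.card (GL (Fin 1) F)).factorization 2 = (q - 1).factorization 2 := by
  rw [factorization_card_GL_succ hF hq, factorization_card_GL_zero, zero_add, zero_add, pow_one]

/-- `q ≡ 1 (mod 4)`. -/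
theorem factorization_card_GL_split (hF : Fintype.card F = q) (h4 : q % 4 = 1) : ∀ n : ℕ,
    (Nat.card (GL (Fin n) F)).factorization 2 = n * (q - 1).factorization 2 + n.factorial.factorization 2
  | 0 => by rw [factorization_card_GL_zero]; simp
  | k + 1 => by
    have hq : Odd q := Nat.odd_iff.2 (by omega)
    have hq1 : 1 < q := hF ▸ Fintype.one_lt_card
    rw [factorization_card_GL_succ hF hq, factorization_card_GL_split hF h4 k, Nat.factorial_succ,
      Nat.factorization_mul (by omega) k.factorial_ne_zero, Finsupp.add_apply, add_one_mul]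
    rcases Nat.even_or_odd' (k + 1) with ⟨j, h | h⟩
    · rw [h, factorization_pow_sub_one_even hq hq1 (show j ≠ 0 by omega),
        factorization_sq_sub_one h4 hq1, Nat.factorization_mul two_ne_zero (show j ≠ 0 by omega),
        Finsupp.add_apply, Nat.prime_two.factorization_self]
      ring
    · rw [factorization_pow_sub_one_odd hq hq1 ⟨j, h⟩,
        Nat.factorization_eq_zero_of_not_dvd (show ¬ 2 ∣ k + 1 by omega)]
      ring

/-- `q` odd, the blocks of size `2` and the remaining block of size at most `1`. -/
theorem factorization_card_GL_twos (hF : Fintype.card F = q) (h4 : q % 4 = 3) : ∀ n : ℕ,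
    (Nat.card (GL (Fin n) F)).factorization 2 =
      (n / 2) * (Nat.card (GL (Fin 2) F)).factorization 2 + (n / 2).factorial.factorization 2 +
        (Nat.card (GL (Fin (n % 2)) F)).factorization 2
  | 0 => by simp [factorization_card_GL_zero]
  | 1 => by simp
  | k + 2 => by
    have hq : Odd q := Nat.odd_iff.2 (by omega)
    have hq1 : 1 < q := hF ▸ Fintype.one_lt_card
    have hd : (k + 2) / 2 = k / 2 + 1 := by omega
    have hm : (k + 2) % 2 = k % 2 := by omega
    have hone : (q - 1).factorization 2 = 1 := by
      rw [show q - 1 = 2 * ((q - 1) / 2) by omega, Nat.factorization_mul two_ne_zero (by omega),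
        Finsupp.add_apply, Nat.prime_two.factorization_self,
        Nat.factorization_eq_zero_of_not_dvd (by omega)]
    have h2 : (Nat.card (GL (Fin 2) F)).factorization 2 = 1 + (q ^ 2 - 1).factorization 2 := by
      rw [factorization_card_GL_succ hF hq, factorization_card_GL_one hF hq, hone]
    rw [factorization_card_GL_succ hF hq, factorization_card_GL_succ hF hq,
      factorization_card_GL_twos hF h4 k, hd, hm, Nat.factorial_succ,
      Nat.factorization_mul (by omega) (k / 2).factorial_ne_zero, Finsupp.add_apply, add_one_mul, h2]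
    rcases Nat.even_or_odd' k with ⟨j, rfl | rfl⟩
    · rw [factorization_pow_sub_one_odd hq hq1 (odd_two_mul_add_one j), hone,
        show 2 * j + 1 + 1 = 2 * (j + 1) by ring, factorization_pow_sub_one_even hq hq1 (j := j + 1) (by omega),
        show 2 * j / 2 = j by omega]
      omega
    · rw [factorization_pow_sub_one_odd hq hq1 (j := 2 * j + 1 + 1 + 1) ⟨j + 1, by ring⟩, hone,
        show 2 * j + 1 + 1 = 2 * (j + 1) by ring, factorization_pow_sub_one_even hq hq1 (j := j + 1) (by omega),
        show (2 * j + 1) / 2 = j by omega]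
      omega

theorem not_dvd_index_of_factorization {G : Type*} [Group G] [Finite G] (H : Subgroup G)
    (h : (Nat.card H).factorization 2 = (Nat.card G).factorization 2) : ¬ 2 ∣ H.index := by
  intro hd
  have := Nat.prime_two.factorization_pos_of_dvd Subgroup.index_ne_zero_of_finite hd
  rw [← H.card_mul_index, Nat.factorization_mul Nat.card_pos.ne' Subgroup.index_ne_zero_of_finite,
    Finsupp.add_apply] at h
  omega

end CfsgLib.FFModules.NormalRank
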