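import Cfsg.Agent.Lib.FFModules.NormalRank.Basic
import Cfsg.Agent.Lib.FFModules.NormalRank.Monomial

/-!
An elementary abelian `2`-group of matrices normalised by quaternion groups in blocks of size two has
rank at most the number of blocks.
-/

set_option autoImplicit false
set_option linter.style.haveILetI false

namespace CfsgLib.FFModules.NormalRank

open Matrix
open CfsgLib.Classes.DerivedWreath (Wr permCoord_apply)

variable {F : Type*} [Field F]

/-- Eigenvectors with different eigenvalue systems are independent. -/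
theorem linearIndependent_of_weights {V E ι : Type*} [AddCommGroup V] [Module F V]
    (T : E → Module.End F V) (v : ι → V) (χ : ι → E → F) (hv : ∀ i, v i ≠ 0)
    (hw : ∀ i a, T a (v i) = χ i a • v i) (hne : Function.Injective χ) : LinearIndependent F v := by
  classical
  rw [linearIndependent_iff']
  intro s
  induction s using Finset.induction with
  | empty => simp
  | @insert i s hi ih =>
    intro g hg
    have key : ∀ a, ∀ j ∈ s, g j * (χ j a - χ i a) = 0 := fun a => ih _ (by
      have h1 := congrArg (T a) hg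
      have h2 := congrArg (fun w => χ i a • w) hg
      simp only [Finset.sum_insert hi, map_add, map_sum, map_smul, map_zero, hw, smul_add,
        Finset.smul_sum, smul_zero, smul_smul] at h1 h2
      have e : (∑ j ∈ s, (g j * χ j a) • v j) - ∑ j ∈ s, (χ i a * g j) • v j = 0 := by
        rw [mul_comm (χ i a) (g i)] at h2
        rw [sub_eq_zero]
        exact add_left_cancel (h1.trans h2.symm)
      rw [← Finset.sum_sub_distrib] at e
      refine Eq.trans (Finset.sum_congr rfl fun j _ => ?_) e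
      rw [← sub_smul]
      congr 1
      ring)
    have hs : ∀ j ∈ s, g j = 0 := fun j hj => by
      obtain ⟨a, ha⟩ : ∃ a, χ j a ≠ χ i a := Function.ne_iff.1 (hne.ne (fun e => hi (by subst e; exact hj)))
      exact (mul_eq_zero.1 (key a j hj)).resolve_right (sub_ne_zero.2 ha)
    intro j hj
    rcases Finset.mem_insert.1 hj with rfl | hj
    · rw [Finset.sum_insert hi, Finset.sum_eq_zero (fun k hk => by rw [hs k hk, zero_smul]), add_zero,
        smul_eq_zero] at hg
      exact hg.resolve_right (hv j)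
    · exact hs j hj

/-- A `2`-group in `GL_2` containing four matrices of an orthonormal quaternion frame. -/
theorem exists_quaternion [Finite F] :
    ∃ (Q : Subgroup (GL (Fin 2) F)) (M : Fin 4 → GL (Fin 2) F), IsPGroup 2 Q ∧ (∀ t, M t ∈ Q) ∧
      ∀ s t, s ≠ t → ∀ c : F,
        ((M s : Matrix (Fin 2) (Fin 2) F) - c • (M t : Matrix (Fin 2) (Fin 2) F)).det = 1 + c ^ 2 := by
  obtain ⟨p, hp⟩ := CharP.exists F
  haveI : Fact p.Prime := ⟨(CharP.char_is_prime_or_zero F p).resolve_right fun h => by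
    subst h; haveI := CharP.charP_to_charZero F; exact not_finite F⟩
  haveI : NeZero p := ⟨(Fact.out : p.Prime).ne_zero⟩
  obtain ⟨a₀, b₀, hab₀⟩ := CharP.sq_add_sq F p (-1)
  obtain ⟨a, b, hab⟩ : ∃ a b : F, a ^ 2 + b ^ 2 = -1 := ⟨a₀, b₀, by simpa using hab₀⟩
  let mI : Matrix (Fin 2) (Fin 2) F := !![0, 1; -1, 0]
  let mJ : Matrix (Fin 2) (Fin 2) F := !![a, b; b, -a]
  have hI : mI * mI = -1 := by ext i j; fin_cases i <;> fin_cases j <;> simp [mI, Matrix.mul_apply]
  have hJ : mJ * mJ = -1 := by
    ext i j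
    fin_cases i <;> fin_cases j <;> simp [mJ, Matrix.mul_apply] <;>
      first | linear_combination hab | ring1
  have hJI : mJ * mI = -(mI * mJ) := by
    ext i j; fin_cases i <;> fin_cases j <;> simp [mI, mJ, Matrix.mul_apply]
  let uI : GL (Fin 2) F := ⟨mI, -mI, by rw [mul_neg, hI, neg_neg], by rw [neg_mul, hI, neg_neg]⟩
  let uJ : GL (Fin 2) F := ⟨mJ, -mJ, by rw [mul_neg, hJ, neg_neg], by rw [neg_mul, hJ, neg_neg]⟩
  have h4I : uI ^ 4 = 1 := Units.ext (by
    show mI ^ 4 = 1
    rw [show 4 = 2 * 2 from rfl, pow_mul, sq mI, hI, neg_one_sq])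
  have h4J : uJ ^ 4 = 1 := Units.ext (by
    show mJ ^ 4 = 1
    rw [show 4 = 2 * 2 from rfl, pow_mul, sq mJ, hJ, neg_one_sq])
  have hZ : ∀ u : GL (Fin 2) F, u ^ 4 = 1 → IsPGroup 2 (Subgroup.zpowers u) := fun u hu g => by
    obtain ⟨k, hk⟩ := g.2
    refine ⟨2, Subtype.ext ?_⟩
    show (g : GL (Fin 2) F) ^ (4 : ℕ) = 1
    rw [← show u ^ k = g from hk, ← zpow_natCast, ← _root_.zpow_mul, mul_comm, _root_.zpow_mul,
      zpow_natCast, hu, _root_.one_zpow]
  have hconj : uJ * uI * uJ⁻¹ = uI⁻¹ := by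
    rw [mul_inv_eq_iff_eq_mul]
    refine Units.ext ?_
    show mJ * mI = -mI * mJ
    rw [hJI, neg_mul]
  have hn : Subgroup.zpowers uJ ≤ Subgroup.normalizer (Subgroup.zpowers uI : Set (GL (Fin 2) F)) := by
    rw [Subgroup.zpowers_le, Subgroup.mem_normalizer_iff]
    intro y
    constructor
    · rintro ⟨k, rfl⟩
      refine ⟨-k, ?_⟩
      show uI ^ (-k) = uJ * uI ^ k * uJ⁻¹
      rw [← _root_.conj_zpow, hconj, _root_.inv_zpow']
    · rintro ⟨k, hk⟩
      refine ⟨-k, ?_⟩
      show uI ^ (-k) = y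
      have hk' : uI ^ k = uJ * y * uJ⁻¹ := hk
      have e : uJ * uI ^ (-k) * uJ⁻¹ = uI ^ k := by rw [← _root_.conj_zpow, hconj, _root_.inv_zpow', neg_neg]
      exact mul_left_cancel (mul_right_cancel (e.trans hk'))
  refine ⟨Subgroup.zpowers uI ⊔ Subgroup.zpowers uJ, ![1, uI, uJ, uI * uJ],
    IsPGroup.to_sup_of_normal_left' (hZ uI h4I) (hZ uJ h4J) hn, ?_, ?_⟩
  · intro t
    fin_cases t
    · exact one_mem _
    · exact Subgroup.mem_sup_left (Subgroup.mem_zpowers uI)
    · exact Subgroup.mem_sup_right (Subgroup.mem_zpowers uJ)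
    · exact mul_mem (Subgroup.mem_sup_left (Subgroup.mem_zpowers uI))
        (Subgroup.mem_sup_right (Subgroup.mem_zpowers uJ))
  · intro s t hst c
    fin_cases s <;> fin_cases t <;>
      simp [uI, uJ, mI, mJ, Matrix.det_fin_two] at hst ⊢ <;>
      first
        | ring1
        | linear_combination (c ^ 2) * (-hab)
        | linear_combination (-hab)
        | linear_combination (-1 - c ^ 2) * hab

theorem finrank_add_le {V : Type*} [AddCommGroup V] [Module F V] [FiniteDimensional F V]
    {A B U : Submodule F V} (hA : A ≤ U) (hB : B ≤ U) (hAB : A ⊓ B = ⊥) :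
    Module.finrank F A + Module.finrank F B ≤ Module.finrank F U := by
  have := Submodule.finrank_sup_add_finrank_inf_eq A B
  rw [hAB, finrank_bot, add_zero] at this
  exact this ▸ Submodule.finrank_mono (sup_le hA hB)

/-- Commuting involutive matrices. -/
theorem card_le_of_elementary {G J : Type*} [Group G] [Finite G] [Fintype J] [DecidableEq J]
    (φ : G →* GL J F) (hφ : Function.Injective φ) (h2 : (2 : F) ≠ 0) (hE : Cfsg.IsElementaryAbelian 2 (⊤ : Subgroup G)) :
    Nat.card G ≤ 2 ^ Fintype.card J := by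
  let ρ : G →* Module.End F (J → F) :=
    (Matrix.toLinAlgEquiv' (R := F) (n := J)).toRingEquiv.toMonoidHom.comp
      ((Units.coeHom (Matrix J J F)).comp φ)
  have key := index_kerOn_le ρ h2
    (fun a b => congrArg Subtype.val (hE.1.1.1 ⟨a, Subgroup.mem_top a⟩ ⟨b, Subgroup.mem_top b⟩))
    (fun a => by rw [← sq]; exact hE.2 a (Subgroup.mem_top a)) 1 one_pos (fun _ => True)
    (fun _ _ _ _ => ⟨trivial, trivial⟩)
    (fun U _ hU => Nat.one_le_iff_ne_zero.2 (mt Submodule.finrank_eq_zero.1 hU))
    ⊤ trivial (fun _ _ _ => Submodule.mem_top)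
  have hbot : kerOn ρ (⊤ : Submodule F (J → F)) = ⊥ := by
    refine (Subgroup.eq_bot_iff_forall _).2 fun a ha => hφ ?_
    rw [map_one]
    refine Units.ext ((Matrix.toLinAlgEquiv' (R := F) (n := J)).injective ?_)
    rw [Units.val_one, map_one]
    exact LinearMap.ext fun u => (ha u Submodule.mem_top).trans rfl
  rwa [hbot, Subgroup.index_bot, finrank_top, Module.finrank_fintype_fun_eq_card, Nat.div_one] at key

/-- Normal elementary abelian subgroups of a Sylow `2`-subgroup, in terms of blocks of size two. -/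
theorem card_le_of_blocks_two [Fintype F] {G ι D : Type*} [Group G] [Finite G] [Fintype ι] [DecidableEq ι]
    [Fintype D] [DecidableEq D] (φ : G ≃* GL ((Fin 2 × ι) ⊕ D) F) (h2 : (2 : F) ≠ 0)
    (hns : ∀ c : F, 1 + c ^ 2 ≠ 0) (S : Sylow 2 G) (E : Subgroup ↥(S : Subgroup G)) [E.Normal]
    (hE : Cfsg.IsElementaryAbelian 2 E) : Nat.card E ≤ 2 ^ (Fintype.card ι + Fintype.card D) := by
  classical
  haveI : Fact (Nat.Prime 2) := ⟨Nat.prime_two⟩
  obtain ⟨Q, M, hQ, hMQ, hdet⟩ := exists_quaternion (F := F)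
  -- the block quaternion group, and a conjugate of it inside `S`
  let blk : (ι → GL (Fin 2) F) →* G := φ.symm.toMonoidHom.comp ((blockHom (F := F) (κ := Fin 2) (ι := ι) (D := D)).comp
    ((MonoidHom.inl _ _).comp SemidirectProduct.inl))
  have hQι : IsPGroup 2 (Subgroup.pi Set.univ fun _ : ι => Q) := by
    obtain ⟨k, hk⟩ := IsPGroup.iff_card.1 hQ
    refine IsPGroup.of_card (n := k * Fintype.card ι) ?_
    have e : (Subgroup.pi Set.univ fun _ : ι => Q) ≃ (ι → Q) :=
      { toFun := fun f i => ⟨(f : ι → _) i, f.2 i (Set.mem_univ i)⟩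
        invFun := fun f => ⟨fun i => f i, fun i _ => (f i).2⟩
        left_inv := fun f => rfl
        right_inv := fun f => rfl }
    rw [Nat.card_congr e, Nat.card_fun, hk, Nat.card_eq_fintype_card, pow_mul]
  obtain ⟨R, hR⟩ := (hQι.map blk).exists_le_sylow
  obtain ⟨g, hg⟩ := MulAction.exists_smul_eq G R S
  have hgS : ∀ y ∈ (R : Subgroup G), g * y * g⁻¹ ∈ (S : Subgroup G) := fun y hy => by
    rw [← hg]; exact ⟨y, hy, rfl⟩
  let R0 : G →* Module.End F ((Fin 2 × ι) ⊕ D → F) :=
    (Matrix.toLinAlgEquiv' (R := F) (n := (Fin 2 × ι) ⊕ D)).toRingEquiv.toMonoidHom.comp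
      ((Units.coeHom (Matrix _ _ F)).comp φ.toMonoidHom)
  have hR0 : ∀ (x : G) v, R0 x v = ((φ x : GL ((Fin 2 × ι) ⊕ D) F) : Matrix _ _ F) *ᵥ v :=
    fun x v => Matrix.toLin'_apply _ v
  have hR0inj : Function.Injective R0 :=
    ((Matrix.toLinAlgEquiv' (R := F) (n := (Fin 2 × ι) ⊕ D)).injective.comp Units.val_injective).comp φ.injective
  let ρ : E →* Module.End F ((Fin 2 × ι) ⊕ D → F) :=
    R0.comp ((MulAut.conj g⁻¹).toMonoidHom.comp ((Subgroup.subtype _).comp E.subtype))
  have hρ : ∀ a : E, ρ a = R0 (g⁻¹ * ((a : ↥(S : Subgroup G)) : G) * g) := fun a => by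
    show R0 (g⁻¹ * _ * g⁻¹⁻¹) = _
    rw [inv_inv]
    rfl
  have hnorm : ∀ y ∈ (R : Subgroup G), ∀ b : E, ∃ a : E, ρ a * R0 y = R0 y * ρ b := fun y hy b => by
    refine ⟨⟨⟨g * y * g⁻¹, hgS y hy⟩ * b * ⟨g * y * g⁻¹, hgS y hy⟩⁻¹,
      Subgroup.Normal.conj_mem inferInstance _ b.2 _⟩, ?_⟩
    rw [hρ, hρ, ← map_mul, ← map_mul]
    congr 1
    simp [mul_assoc]
  set L : Submodule F ((Fin 2 × ι) ⊕ D → F) := LinearMap.ker (LinearMap.funLeft F F (Sum.inl : Fin 2 × ι → (Fin 2 × ι) ⊕ D)) with hL
  set P : Submodule F ((Fin 2 × ι) ⊕ D → F) → Prop := fun U =>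
    ∀ u ∈ U, u ≠ 0 → ∀ w, (∀ (a : E) (c : F), ρ a u = c • u → ρ a w = c • w) → w ∈ U with hP
  have key := index_kerOn_le_measure ρ h2 (fun a b => hE.1.1.1 a b)
    (fun a => Subtype.ext (by simpa [sq] using hE.2 _ a.2))
    (fun U => (Module.finrank F U + Module.finrank F (U ⊓ L : Submodule F _)) / 2) P ?_ ?_ ?_ ⊤
    (fun _ _ _ _ _ => Submodule.mem_top) (fun _ _ _ => Submodule.mem_top)
  · have hbot : kerOn ρ (⊤ : Submodule F ((Fin 2 × ι) ⊕ D → F)) = ⊥ := by
      refine (Subgroup.eq_bot_iff_forall _).2 fun a ha => ?_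
      have e : ρ a = 1 := LinearMap.ext fun u => (ha u Submodule.mem_top).trans rfl
      rw [hρ, ← map_one R0, hR0inj.eq_iff, mul_eq_one_iff_eq_inv, mul_eq_left] at e
      exact Subtype.ext (Subtype.ext e)
    rw [hbot, Subgroup.index_bot, finrank_top, Module.finrank_fintype_fun_eq_card, top_inf_eq] at key
    refine key.trans (Nat.pow_le_pow_right two_pos ?_)
    have hLd : Module.finrank F L ≤ Fintype.card D := by
      rw [← Module.finrank_fintype_fun_eq_card (R := F) (η := D)]
      refine LinearMap.finrank_le_finrank_of_injective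
        (f := (LinearMap.funLeft F F (Sum.inr : D → (Fin 2 × ι) ⊕ D)).comp L.subtype) fun x y e => ?_
      refine Subtype.ext (funext fun p => ?_)
      rcases p with p | d
      · exact (congrFun x.2 p).trans (congrFun y.2 p).symm
      · exact congrFun e d
    simp only [Fintype.card_sum, Fintype.card_prod, Fintype.card_fin]
    omega
  · -- splitting preserves `P`
    intro U hU _ a
    constructor
    · intro u hu hu0 w hw
      refine ⟨hU u hu.1 hu0 w hw, ?_⟩
      have h1 : ρ a u = u := by simpa [sub_eq_zero] using hu.2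
      have h3 := hw a 1 (by rw [one_smul, h1])
      simpa [sub_eq_zero] using h3
    · intro u hu hu0 w hw
      refine ⟨hU u hu.1 hu0 w hw, ?_⟩
      have h1 : ρ a u = -u := by simpa [add_eq_zero_iff_eq_neg] using hu.2
      have h3 := hw a (-1) (by rw [neg_one_smul, h1])
      simpa [add_eq_zero_iff_eq_neg] using h3
  · -- a common eigenspace of dimension one lies in `L`
    intro U hU hne hsc
    rw [Nat.one_le_div_iff two_pos]
    by_contra hlt
    have hpos : 0 < Module.finrank F U := Nat.pos_of_ne_zero (mt Submodule.finrank_eq_zero.1 hne)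
    have hd : Module.finrank F U = 1 := by omega
    have hUL : U ⊓ L = ⊥ := Submodule.finrank_eq_zero.1 (by omega)
    obtain ⟨u, hu, hu0⟩ := Submodule.exists_mem_ne_zero_of_ne_bot hne
    obtain ⟨⟨a₀, i⟩, hi⟩ : ∃ p, u (Sum.inl p) ≠ 0 := by
      by_contra hc
      push Not at hc
      have hm : u ∈ U ⊓ L := ⟨hu, funext hc⟩
      rw [hUL, Submodule.mem_bot] at hm
      exact hu0 hm
    let x : Fin 4 → G := fun t => blk (Pi.mulSingle i (M t))
    have hxR : ∀ t, x t ∈ (R : Subgroup G) := fun t => hR ⟨_, fun j _ => by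
      by_cases hj : j = i
      · subst hj; simpa using hMQ t
      · simp [hj], rfl⟩
    have hv0 : ∀ t, R0 (x t) u ≠ 0 := fun t e => hu0 (by
      have h1 := congrArg (R0 (x t)⁻¹) e
      rwa [← Module.End.mul_apply, ← map_mul, inv_mul_cancel, map_one, Module.End.one_apply, map_zero] at h1)
    have hweight : ∀ t (a : E), ∃ c : F, ρ a (R0 (x t) u) = c • R0 (x t) u := fun t a => by
      obtain ⟨b, hb⟩ := hnorm (x t)⁻¹ (inv_mem (hxR t)) a
      have hcm : ρ a * R0 (x t) = R0 (x t) * ρ b := by
        calc ρ a * R0 (x t) = R0 (x t) * R0 (x t)⁻¹ * ρ a * R0 (x t) := by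
              rw [← map_mul R0, mul_inv_cancel, map_one, one_mul]
          _ = R0 (x t) * ρ b := by
              rw [mul_assoc (R0 (x t)) (R0 (x t)⁻¹), ← hb, mul_assoc, mul_assoc (ρ b), ← map_mul R0,
                inv_mul_cancel, map_one, mul_one]
      rcases hsc b with hb' | hb'
      · exact ⟨1, by rw [one_smul, ← Module.End.mul_apply, hcm, Module.End.mul_apply, hb' u hu]⟩
      · exact ⟨-1, by rw [neg_one_smul, ← Module.End.mul_apply, hcm, Module.End.mul_apply, hb' u hu,
          map_neg]⟩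
    choose χ hχ using hweight
    have hinj : Function.Injective χ := by
      intro s t hst
      by_contra hne'
      set w := R0 (x t)⁻¹ (R0 (x s) u) with hw
      have htw : R0 (x t) w = R0 (x s) u := by
        rw [hw, ← Module.End.mul_apply, ← map_mul, mul_inv_cancel, map_one, Module.End.one_apply]
      have hwU : w ∈ U := hU u hu hu0 w fun b c hbc => by
        obtain ⟨a, ha⟩ := hnorm (x t) (hxR t) b
        have hta : ρ a (R0 (x t) u) = c • R0 (x t) u := by
          rw [← Module.End.mul_apply, ha, Module.End.mul_apply, hbc, map_smul]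
        have hc : χ t a = c := smul_left_injective F (hv0 t) ((hχ t a).symm.trans hta)
        have hsa : ρ a (R0 (x t) w) = c • R0 (x t) w := by rw [htw, hχ s a, hst, hc]
        rw [← Module.End.mul_apply, ha, Module.End.mul_apply, ← map_smul] at hsa
        have h1 := congrArg (R0 (x t)⁻¹) hsa
        rwa [← Module.End.mul_apply, ← Module.End.mul_apply (R0 (x t)⁻¹) (R0 (x t)), ← map_mul,
          inv_mul_cancel, map_one, Module.End.one_apply, Module.End.one_apply] at h1
      obtain ⟨k, hk⟩ := (finrank_eq_one_iff_of_nonzero' (⟨u, hu⟩ : U) (fun e => hu0 (congrArg Subtype.val e))).1 hd ⟨w, hwU⟩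
      have hk' : R0 (x s) u = k • R0 (x t) u := by
        rw [← htw, show w = k • u from (congrArg Subtype.val hk).symm, map_smul]
      have hcomp : ∀ r a, R0 (x r) u (Sum.inl (a, i)) =
          ((M r : Matrix (Fin 2) (Fin 2) F) *ᵥ fun b => u (Sum.inl (b, i))) a := fun r a => by
        rw [hR0, show φ (x r) = blockHom (⟨Pi.mulSingle i (M r), 1⟩, 1) from φ.apply_symm_apply _, coe_blockHom,
          blockMat, Matrix.fromBlocks_mulVec]
        simp [Matrix.mulVec, dotProduct, Fintype.sum_prod_type, ite_mul]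
      have h0 : ((M s : Matrix (Fin 2) (Fin 2) F) - k • (M t : Matrix (Fin 2) (Fin 2) F)) *ᵥ
          (fun b => u (Sum.inl (b, i))) = 0 := by
        funext a
        rw [Matrix.sub_mulVec, Matrix.smul_mulVec, Pi.sub_apply, Pi.smul_apply, ← hcomp, ← hcomp, hk',
          Pi.smul_apply, sub_self]
        rfl
      exact hi (congrFun (Matrix.eq_zero_of_mulVec_eq_zero (by rw [hdet s t hne' k]; exact hns k) h0) a₀)
    have hli := linearIndependent_of_weights (fun a : E => ρ a) (fun t => R0 (x t) u) χ hv0 hχ hinj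
    have hspan : Submodule.span F (Set.range fun t => R0 (x t) u) ≤
        Submodule.span F (Set.range ![u, Pi.single (Sum.inl (0, i)) 1, Pi.single (Sum.inl (1, i)) 1]) := by
      rw [Submodule.span_le]
      rintro _ ⟨t, rfl⟩
      rw [SetLike.mem_coe, Submodule.mem_span_range_iff_exists_fun]
      refine ⟨![1, R0 (x t) u (Sum.inl (0, i)) - u (Sum.inl (0, i)),
        R0 (x t) u (Sum.inl (1, i)) - u (Sum.inl (1, i))], ?_⟩
      funext p
      rcases p with ⟨a, j⟩ | d
      · by_cases hj : j = i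
        · subst hj
          fin_cases a <;> simp [Fin.sum_univ_three]
        · show _ = R0 (x t) u (Sum.inl (a, j))
          rw [hR0, show φ (x t) = blockHom (⟨Pi.mulSingle i (M t), 1⟩, 1) from φ.apply_symm_apply _,
            coe_blockHom, blockMat, Matrix.fromBlocks_mulVec]
          simp [Fin.sum_univ_three, Matrix.mulVec, dotProduct, Fintype.sum_prod_type, ite_mul,
            Matrix.one_apply, hj]
      · show _ = R0 (x t) u (Sum.inr d)
        rw [hR0, show φ (x t) = blockHom (⟨Pi.mulSingle i (M t), 1⟩, 1) from φ.apply_symm_apply _,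
          coe_blockHom, blockMat, Matrix.fromBlocks_mulVec]
        simp [Fin.sum_univ_three]
    have h4 := Submodule.finrank_mono hspan
    rw [finrank_span_eq_card hli, Fintype.card_fin] at h4
    have h3 := finrank_range_le_card (R := F)
      ![u, Pi.single (Sum.inl (0, i)) 1, Pi.single (Sum.inl (1, i)) 1]
    rw [Set.finrank, Fintype.card_fin] at h3
    omega
  · -- superadditivity
    intro A B U hA hB hAB
    refine Nat.div_add_div_le_add_div.trans (Nat.div_le_div_right ?_)
    have h1 := finrank_add_le hA hB hAB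
    have h3 : Module.finrank F (A ⊓ L : Submodule F _) + Module.finrank F (B ⊓ L : Submodule F _) ≤
        Module.finrank F (U ⊓ L : Submodule F _) :=
      finrank_add_le (inf_le_inf_right _ hA) (inf_le_inf_right _ hB)
        (le_bot_iff.1 ((inf_le_inf inf_le_left inf_le_left).trans hAB.le))
    omega

end CfsgLib.FFModules.NormalRank
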